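import Cfsg.Agent.H566.G2.Defs
import Cfsg.Agent.H520.RC.MHom

/-!
# S3509, `G₂(q)`, box (A1): the pointwise stabiliser of the split subalgebra is `SL(3, q)` (helper256)
-/

set_option autoImplicit false
open Cfsg

namespace Cfsg.Agent.H256.G2

open Cfsg.Lie Cfsg.Agent.H161.Oct Cfsg.Agent.H106.RC Cfsg.Agent.H566.G2
open scoped commutatorElement

variable {F : Type} [Field F]

/-- `SL₃` into the automorphism group -/
noncomputable def fA (F : Type) [Field F] : Matrix.SpecialLinearGroup (Fin 3) F →* AutO F :=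
  (slM F).codRestrict (AutO F) slM_mem

theorem fA_coe (A : Matrix.SpecialLinearGroup (Fin 3) F) : ((fA F A : AutO F) : V F ≃ₗ[F] V F) = slM F A := rfl

theorem fA_inj : Function.Injective (fA F) := fun _ _ h => slM_inj (congrArg Subtype.val h)

theorem slF_e1 (P : Matrix (Fin 3) (Fin 3) F) : slF P e1 = e1 := by
  apply ext8 <;> simp [slF0, slF1, slF2, slF3, slF4, slF5, slF6, slF7, e1_0, e1_1, e1_2, e1_3, e1_4, e1_5, e1_6, e1_7]

theorem fA_mem (A : Matrix.SpecialLinearGroup (Fin 3) F) : fA F A ∈ MK (e1 : V F) := slF_e1 A.1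

theorem fA_range : (fA F).range = MK (e1 : V F) := by
  ext g
  constructor
  · rintro ⟨A, rfl⟩
    exact fA_mem A
  · intro hg
    obtain ⟨A, hA, h⟩ := exists_sl g.2 hg
    refine ⟨(⟨A, hA⟩ : Matrix.SpecialLinearGroup (Fin 3) F), ?_⟩
    apply Subtype.ext
    rw [h]
    rfl

/-- `SL₃(F) ≃ MK e1` -/
noncomputable def eA (F : Type) [Field F] : Matrix.SpecialLinearGroup (Fin 3) F ≃* MK (e1 : V F) :=
  (MonoidHom.ofInjective fA_inj).trans (MulEquiv.subgroupCongr fA_range)

/-! ### the centraliser -/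

section cen

variable {c : V F ≃ₗ[F] V F} (hc : c ∈ AutO F)
  (h : ∀ P : Matrix (Fin 3) (Fin 3) F, P.det = 1 → ∀ x, c (slF P x) = slF P (c x))

include hc h in
theorem cen_line : ∃ l : F, c (Pi.single 1 1) = l • Pi.single 1 1 := by
  set w := c (Pi.single 1 1) with hw
  have key : ∀ P : Matrix (Fin 3) (Fin 3) F, P.det = 1 → slF P (Pi.single 1 1) = Pi.single 1 1 → slF P w = w := by
    intro P hP h1
    rw [hw, ← h P hP, h1]
  have k1 := key !![1, 1, 0; 0, 1, 0; 0, 0, 1] (by simp [Matrix.det_fin_three])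
    (by apply ext8 <;> simp [slF0, slF1, slF2, slF3, slF4, slF5, slF6, slF7])
  have k2 := key !![1, 0, 1; 0, 1, 0; 0, 0, 1] (by simp [Matrix.det_fin_three])
    (by apply ext8 <;> simp [slF0, slF1, slF2, slF3, slF4, slF5, slF6, slF7])
  have k3 := key !![1, 0, 0; 0, 1, 1; 0, 0, 1] (by simp [Matrix.det_fin_three])
    (by apply ext8 <;> simp [slF0, slF1, slF2, slF3, slF4, slF5, slF6, slF7])
  have k4 := key !![1, 0, 0; 0, 1, 0; 0, 1, 1] (by simp [Matrix.det_fin_three])
    (by apply ext8 <;> simp [slF0, slF1, slF2, slF3, slF4, slF5, slF6, slF7])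
  have w2 : w 2 = 0 := by simpa [slF1] using congrFun k1 1
  have w3 : w 3 = 0 := by simpa [slF1] using congrFun k2 1
  have w4 : w 4 = 0 := by simpa [slF5] using congrFun k1 5
  have w5 : w 5 = 0 := by simpa [slF6] using congrFun k3 6
  have w6 : w 6 = 0 := by simpa [slF5] using congrFun k4 5
  have ht : w 0 + w 7 = 0 := by
    have := map_tr hc (Pi.single 1 1 : V F)
    simpa [tr] using this
  have hn : w 0 * w 7 = 0 := by
    have := map_nm hc (Pi.single 1 1 : V F)
    rw [← hw, nm, nm, w2, w3, w4] at this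
    simp at this
    rcases this with h1 | h1 <;> rw [h1] <;> ring
  have w0 : w 0 = 0 := by
    rcases mul_eq_zero.1 hn with h1 | h1
    · exact h1
    · rwa [h1, add_zero] at ht
  have w7 : w 7 = 0 := by rwa [w0, zero_add] at ht
  refine ⟨w 1, ?_⟩
  apply ext8 <;> simp [w0, w2, w3, w4, w5, w6, w7]

include hc h in
theorem cen_all : c e1 = e1 ∧ ∃ l : F, l ^ 3 = 1 ∧ ∀ x, c x = ![x 0, l * x 1, l * x 2, l * x 3, l ^ 2 * x 4,
    l ^ 2 * x 5, l ^ 2 * x 6, x 7] := by
  obtain ⟨l, h1⟩ := cen_line hc h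
  have hP : (!![0, 0, 1; 1, 0, 0; 0, 1, 0] : Matrix (Fin 3) (Fin 3) F).det = 1 := by
    simp [Matrix.det_fin_three]
  have h2 : c (Pi.single 2 1) = l • Pi.single 2 1 := by
    have e : slF (!![0, 0, 1; 1, 0, 0; 0, 1, 0] : Matrix (Fin 3) (Fin 3) F) (Pi.single 1 1) = Pi.single 2 1 := by
      apply ext8 <;> simp [slF0, slF1, slF2, slF3, slF4, slF5, slF6, slF7]
    rw [← e, h _ hP, h1]
    exact (slL _).map_smul l _
  have h3 : c (Pi.single 3 1) = l • Pi.single 3 1 := by
    have e : slF (!![0, 0, 1; 1, 0, 0; 0, 1, 0] : Matrix (Fin 3) (Fin 3) F) (Pi.single 2 1) = Pi.single 3 1 := by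
      apply ext8 <;> simp [slF0, slF1, slF2, slF3, slF4, slF5, slF6, slF7]
    rw [← e, h _ hP, h2]
    exact (slL _).map_smul l _
  have m : ∀ x y z : V F, zornMul x y = z → c x = l • x → c y = l • y → c z = l ^ 2 • z := by
    intro x y z hz hx hy
    rw [← hz, mem_AutO.1 hc, hx, hy, zsmul_mul, zmul_smul, smul_smul, pow_two]
  have h4 : c (Pi.single 4 1) = l ^ 2 • Pi.single 4 1 := by
    refine m _ _ _ ?_ h2 h3
    apply ext8 <;> simp [mul0, mul1, mul2, mul3, mul4, mul5, mul6, mul7]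
  have h5 : c (Pi.single 5 1) = l ^ 2 • Pi.single 5 1 := by
    refine m _ _ _ ?_ h3 h1
    apply ext8 <;> simp [mul0, mul1, mul2, mul3, mul4, mul5, mul6, mul7]
  have h6 : c (Pi.single 6 1) = l ^ 2 • Pi.single 6 1 := by
    refine m _ _ _ ?_ h1 h2
    apply ext8 <;> simp [mul0, mul1, mul2, mul3, mul4, mul5, mul6, mul7]
  have he : c e1 = l ^ 3 • e1 := by
    have e : zornMul (Pi.single 1 1 : V F) (Pi.single 4 1) = e1 := by
      apply ext8 <;> simp [mul0, mul1, mul2, mul3, mul4, mul5, mul6, mul7, e1_0, e1_1, e1_2, e1_3, e1_4, e1_5, e1_6, e1_7]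
    rw [← e, mem_AutO.1 hc, h1, h4, zsmul_mul, zmul_smul, smul_smul]
    congr 1
    ring
  have hl : l ^ 3 = 1 := by
    have := map_tr hc (e1 : V F)
    rw [he, tr_smul] at this
    simpa [tr, e1_0, e1_7] using this
  have he' : c e1 = e1 := by rw [he, hl, one_smul]
  refine ⟨he', l, hl, fun x => ?_⟩
  have ho := map_o hc
  have e : x = x 0 • e1 + x 1 • Pi.single 1 1 + x 2 • Pi.single 2 1 + x 3 • Pi.single 3 1 + x 4 • Pi.single 4 1 +
      x 5 • Pi.single 5 1 + x 6 • Pi.single 6 1 + x 7 • (o - e1) := by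
    apply ext8 <;> simp [e1_0, e1_1, e1_2, e1_3, e1_4, e1_5, e1_6, e1_7, o0, o1, o2, o3, o4, o5, o6, o7]
  conv_lhs => rw [e]
  simp only [map_add, map_smul, map_sub, he', ho, h1, h2, h3, h4, h5, h6]
  apply ext8 <;>
    simp [e1_0, e1_1, e1_2, e1_3, e1_4, e1_5, e1_6, e1_7, o0, o1, o2, o3, o4, o5, o6, o7, mul_comm]

end cen

/-- **(A1)** -/
theorem mfacts_e1 [Finite F] (_hq : 3 ≤ Nat.card F) : MFacts (e1 : V F) where
  perf := by
    rw [← fA_range, MonoidHom.range_eq_map, ← Subgroup.map_commutator]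
    congr 1
    exact Cfsg.Agent.LieClassical.SLGen.commutator_eq_top (by rw [Fintype.card_fin])
  bot := by
    intro hb
    have h1 : Function.Injective (fA F) := fA_inj
    have h2 : ∀ A, fA F A = 1 := fun A => by
      have := fA_mem A
      rwa [hb, Subgroup.mem_bot] at this
    have h3 : ∀ A : Matrix.SpecialLinearGroup (Fin 3) F, A = 1 := fun A => h1 ((h2 A).trans (map_one _).symm)
    replace h3 := h3 ⟨!![0, 0, 1; 1, 0, 0; 0, 1, 0], by simp [Matrix.det_fin_three]⟩
    have h4 : (0 : F) = (1 : Matrix (Fin 3) (Fin 3) F) 0 0 := congrFun (congrFun (congrArg Subtype.val h3) 0) 0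
    rw [Matrix.one_apply_eq] at h4
    exact zero_ne_one h4
  top := by
    intro ht
    have h1 : (⟨swp F, swp_mem⟩ : AutO F) ∈ MK (e1 : V F) := by rw [ht]; exact Subgroup.mem_top _
    have h2 := congrFun (show swpF (e1 : V F) = e1 from h1) 0
    rw [swpF0, e1_7, e1_0] at h2
    exact zero_ne_one h2
  quo := by
    refine ⟨Matrix.ProjectiveSpecialLinearGroup (Fin 3) F, inferInstance, inferInstance,
      (QuotientGroup.mk' (Subgroup.center _)).comp (eA F).symm.toMonoidHom,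
      (QuotientGroup.mk'_surjective _).comp (eA F).symm.surjective, ?_,
      Cfsg.Agent.H520.RC.psl_simple3 le_rfl, Cfsg.Agent.H520.RC.psl_ncomm3 le_rfl,
      Cfsg.Agent.H520.RC.psl_cl3 le_rfl, Cfsg.Agent.H520.RC.psl_not_exc3 le_rfl (by omega)⟩
    intro a ha
    rw [MonoidHom.mem_ker] at ha
    have ha' : (QuotientGroup.mk ((eA F).symm a) : Matrix.SpecialLinearGroup (Fin 3) F ⧸ _) = 1 := ha
    rw [QuotientGroup.eq_one_iff, Subgroup.mem_center_iff] at ha'
    rw [Subgroup.mem_center_iff]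
    intro b
    have h1 := ha' ((eA F).symm b)
    rw [← map_mul, ← map_mul] at h1
    exact (eA F).symm.injective h1
  cen := by
    intro c hcm
    have h : ∀ P : Matrix (Fin 3) (Fin 3) F, P.det = 1 → ∀ x, (c : V F ≃ₗ[F] V F) (slF P x) =
        slF P ((c : V F ≃ₗ[F] V F) x) := by
      intro P hP x
      have h1 := congrArg (fun g : AutO F => (g : V F ≃ₗ[F] V F) x) (hcm _ (fA_mem ⟨P, hP⟩))
      exact h1
    obtain ⟨h1, l, hl, h2⟩ := cen_all c.2 h
    refine ⟨h1, ?_⟩
    apply Subtype.ext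
    apply LinearEquiv.ext
    intro x
    show ((c : V F ≃ₗ[F] V F) ^ 3) x = x
    have h3 : ((c : V F ≃ₗ[F] V F) ^ 3) x = (c : V F ≃ₗ[F] V F) ((c : V F ≃ₗ[F] V F) ((c : V F ≃ₗ[F] V F) x)) := rfl
    rw [h3, h2 x, h2, h2]
    have hl6 : l ^ 2 * (l ^ 2 * l ^ 2) = 1 := by
      calc l ^ 2 * (l ^ 2 * l ^ 2) = (l ^ 3) ^ 2 := by ring
        _ = 1 := by rw [hl, one_pow]
    apply ext8
    · rfl
    · show l * (l * (l * x 1)) = x 1
      linear_combination (x 1) * hl
    · show l * (l * (l * x 2)) = x 2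
      linear_combination (x 2) * hl
    · show l * (l * (l * x 3)) = x 3
      linear_combination (x 3) * hl
    · show l ^ 2 * (l ^ 2 * (l ^ 2 * x 4)) = x 4
      linear_combination (x 4) * hl6
    · show l ^ 2 * (l ^ 2 * (l ^ 2 * x 5)) = x 5
      linear_combination (x 5) * hl6
    · show l ^ 2 * (l ^ 2 * (l ^ 2 * x 6)) = x 6
      linear_combination (x 6) * hl6
    · rfl

end Cfsg.Agent.H256.G2
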